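import Mathlib

/-! Adding a hyperbolic plane to a quadratic form: zero counts, transitivity, group orders. -/
set_option autoImplicit false

namespace CfsgLib.Orth.Hyperbolic

variable {F : Type*} [Field F] {V : Type*} [AddCommGroup V] [Module F V]

/-- the polar form has trivial radical -/
def Nondeg (Q : QuadraticForm F V) : Prop := ∀ u : V, u ≠ 0 → ∃ y, QuadraticMap.polar Q u y ≠ 0

/-- linear isometries of a function -/
abbrev Iso (F : Type*) [Field F] {V : Type*} [AddCommGroup V] [Module F V] (Q : V → F) :=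
  {g : V ≃ₗ[F] V // ∀ v, Q (g v) = Q v}

theorem Qadd (Q : QuadraticForm F V) (x y : V) : Q (x + y) = Q x + Q y + QuadraticMap.polar Q x y :=
  QuadraticMap.map_add (⇑Q) x y

theorem Qsmul (Q : QuadraticForm F V) (a : F) (x : V) : Q (a • x) = a * a * Q x := QuadraticMap.map_smul Q a x

theorem Qsub (Q : QuadraticForm F V) (x y : V) : Q (x - y) = Q x + Q y - QuadraticMap.polar Q x y := by
  rw [sub_eq_add_neg, Qadd, QuadraticMap.map_neg, QuadraticMap.polar_neg_right]; ring

theorem polar_self' (Q : QuadraticForm F V) (x : V) : QuadraticMap.polar Q x x = Q x + Q x := by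
  rw [QuadraticMap.polar_self, two_nsmul]

theorem polar_iso (Q : QuadraticForm F V) (g : Iso F ⇑Q) (x y : V) :
    QuadraticMap.polar Q (g.1 x) (g.1 y) = QuadraticMap.polar Q x y := by
  simp only [QuadraticMap.polar, ← map_add, g.2]

/-- a linear map preserving a non-degenerate form on a finite-dimensional space is an isometry -/
noncomputable def mkIso [FiniteDimensional F V] (Q : QuadraticForm F V) (hQ : Nondeg Q) (L : V →ₗ[F] V)
    (h : ∀ v, Q (L v) = Q v) : Iso F ⇑Q :=
  ⟨LinearEquiv.ofInjectiveEndo L (by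
    rw [← LinearMap.ker_eq_bot, LinearMap.ker_eq_bot']
    intro u hu
    by_contra h0
    obtain ⟨y, hy⟩ := hQ u h0
    apply hy
    have hp : QuadraticMap.polar Q (L u) (L y) = QuadraticMap.polar Q u y := by
      simp only [QuadraticMap.polar, ← map_add, h]
    rw [← hp, hu, QuadraticMap.polar_zero_left]), h⟩

theorem mkIso_apply [FiniteDimensional F V] (Q : QuadraticForm F V) (hQ : Nondeg Q) (L : V →ₗ[F] V)
    (h : ∀ v, Q (L v) = Q v) (v : V) : (mkIso Q hQ L h).1 v = L v := rfl

/-- composition of isometries -/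
def comp {Q : V → F} (g h : Iso F Q) : Iso F Q := ⟨h.1.trans g.1, fun v => (g.2 _).trans (h.2 v)⟩

theorem reflect [FiniteDimensional F V] (Q : QuadraticForm F V) (hQ : Nondeg Q) (w : V) (hw : Q w ≠ 0) :
    ∃ g : Iso F ⇑Q, ∀ x, g.1 x = x - (QuadraticMap.polar Q x w / Q w) • w := by
  refine ⟨mkIso Q hQ
    { toFun := fun x => x - (QuadraticMap.polar Q x w / Q w) • w
      map_add' := fun x y => by simp [QuadraticMap.polar_add_left, add_div, add_smul]; abel
      map_smul' := fun c x => by simp [QuadraticMap.polar_smul_left, smul_sub, smul_smul, mul_div_assoc] }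
    (fun x => ?_), fun x => rfl⟩
  show Q (x - (QuadraticMap.polar Q x w / Q w) • w) = Q x
  rw [Qsub, Qsmul, QuadraticMap.polar_smul_right, smul_eq_mul]
  field_simp
  ring

theorem siegel [FiniteDimensional F V] (Q : QuadraticForm F V) (hQ : Nondeg Q) (u x : V) (hu : Q u = 0)
    (hux : QuadraticMap.polar Q u x = 0) :
    ∃ g : Iso F ⇑Q, ∀ y, g.1 y = y + QuadraticMap.polar Q y u • x -
      (QuadraticMap.polar Q y x + Q x * QuadraticMap.polar Q y u) • u := by
  refine ⟨mkIso Q hQ
    { toFun := fun y => y + QuadraticMap.polar Q y u • x - (QuadraticMap.polar Q y x + Q x * QuadraticMap.polar Q y u) • u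
      map_add' := fun a b => by simp only [QuadraticMap.polar_add_left, mul_add, add_smul]; abel
      map_smul' := fun c a => by
        simp only [QuadraticMap.polar_smul_left, smul_eq_mul, RingHom.id_apply, smul_sub, smul_add, smul_smul]
        congr 2; ring }
    (fun y => ?_), fun y => rfl⟩
  show Q (y + QuadraticMap.polar Q y u • x - (QuadraticMap.polar Q y x + Q x * QuadraticMap.polar Q y u) • u) = Q y
  rw [Qsub, Qadd, Qsmul, Qsmul, hu, QuadraticMap.polar_add_left, QuadraticMap.polar_smul_left, QuadraticMap.polar_smul_right,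
    QuadraticMap.polar_smul_right, QuadraticMap.polar_smul_right, QuadraticMap.polar_comm _ x u, hux]
  simp only [smul_eq_mul]
  ring

theorem exists_singular_nonperp [FiniteDimensional F V] (Q : QuadraticForm F V) (hQ : Nondeg Q) {u u' : V}
    (hu : Q u = 0) (hu0 : u ≠ 0) (hu0' : u' ≠ 0) (h : QuadraticMap.polar Q u u' = 0) :
    ∃ z, Q z = 0 ∧ QuadraticMap.polar Q u z ≠ 0 ∧ QuadraticMap.polar Q u' z ≠ 0 := by
  obtain ⟨y, hy, hy'⟩ : ∃ y, QuadraticMap.polar Q u y ≠ 0 ∧ QuadraticMap.polar Q u' y ≠ 0 := by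
    obtain ⟨a, ha⟩ := hQ u hu0
    obtain ⟨b, hb⟩ := hQ u' hu0'
    by_cases h1 : QuadraticMap.polar Q u' a = 0
    · by_cases h2 : QuadraticMap.polar Q u b = 0
      · exact ⟨a + b, by rwa [QuadraticMap.polar_add_right, h2, add_zero],
          by rwa [QuadraticMap.polar_add_right, h1, zero_add]⟩
      · exact ⟨b, h2, hb⟩
    · exact ⟨a, ha, h1⟩
  refine ⟨y + (-(Q y) / QuadraticMap.polar Q u y) • u, ?_, ?_, ?_⟩
  · rw [Qadd, Qsmul, hu, QuadraticMap.polar_smul_right, QuadraticMap.polar_comm _ y u, smul_eq_mul]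
    field_simp; ring
  · rwa [QuadraticMap.polar_add_right, QuadraticMap.polar_smul_right, polar_self', hu, add_zero, smul_zero, add_zero]
  · rwa [QuadraticMap.polar_add_right, QuadraticMap.polar_smul_right, QuadraticMap.polar_comm _ u' u, h, smul_zero,
      add_zero]

theorem trans_singular [FiniteDimensional F V] (Q : QuadraticForm F V) (hQ : Nondeg Q) {u u' : V}
    (hu : Q u = 0) (hu' : Q u' = 0) (hu0 : u ≠ 0) (hu0' : u' ≠ 0) : ∃ g : Iso F ⇑Q, g.1 u = u' := by
  have key : ∀ {a b : V}, Q a = 0 → Q b = 0 → QuadraticMap.polar Q a b ≠ 0 → ∃ g : Iso F ⇑Q, g.1 a = b := by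
    intro a b ha hb hab
    have hQw : Q (a - b) = -QuadraticMap.polar Q a b := by rw [Qsub, ha, hb]; ring
    obtain ⟨g, hg⟩ := reflect Q hQ (a - b) (by rw [hQw]; exact neg_ne_zero.2 hab)
    refine ⟨g, ?_⟩
    rw [hg, QuadraticMap.polar_sub_right, polar_self', ha, add_zero, zero_sub, hQw, div_self (neg_ne_zero.2 hab),
      one_smul, sub_sub_cancel]
  by_cases h : QuadraticMap.polar Q u u' = 0
  · obtain ⟨z, hz, h1, h2⟩ := exists_singular_nonperp Q hQ hu hu0 hu0' h
    obtain ⟨g, hg⟩ := key hu hz h1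
    obtain ⟨k, hk⟩ := key hz hu' (by rwa [QuadraticMap.polar_comm])
    exact ⟨comp k g, by show k.1 (g.1 u) = u'; rw [hg, hk]⟩
  · exact key hu hu' h

theorem trans_pair [FiniteDimensional F V] (Q : QuadraticForm F V) (hQ : Nondeg Q) {u v u' v' : V}
    (hu : Q u = 0) (hv : Q v = 0) (huv : QuadraticMap.polar Q u v = 1)
    (hu' : Q u' = 0) (hv' : Q v' = 0) (huv' : QuadraticMap.polar Q u' v' = 1) :
    ∃ g : Iso F ⇑Q, g.1 u = u' ∧ g.1 v = v' := by
  have h0 : u ≠ 0 := by rintro rfl; rw [QuadraticMap.polar_zero_left] at huv; exact zero_ne_one huv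
  have h0' : u' ≠ 0 := by rintro rfl; rw [QuadraticMap.polar_zero_left] at huv'; exact zero_ne_one huv'
  obtain ⟨g, hg⟩ := trans_singular Q hQ hu hu' h0 h0'
  set w := g.1 v with hw
  have hw1 : QuadraticMap.polar Q u' w = 1 := by rw [hw, ← hg, polar_iso, huv]
  have hQw : Q w = 0 := by rw [hw, g.2, hv]
  obtain ⟨k, hk⟩ := siegel Q hQ u' (v' - w) hu' (by rw [QuadraticMap.polar_sub_right, huv', hw1, sub_self])
  refine ⟨comp k g, ?_, ?_⟩
  · show k.1 (g.1 u) = u'
    rw [hg, hk, polar_self', hu', add_zero, mul_zero, QuadraticMap.polar_sub_right, huv', hw1, sub_self, add_zero,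
      zero_smul, zero_smul, add_zero, sub_zero]
  · show k.1 w = v'
    rw [hk, QuadraticMap.polar_comm _ w u', hw1, mul_one, one_smul, QuadraticMap.polar_sub_right, polar_self', Qsub,
      hQw, hv', QuadraticMap.polar_comm _ v' w]
    rw [show QuadraticMap.polar Q w v' - (0 + 0) + (0 + 0 - QuadraticMap.polar Q w v') = 0 by ring, zero_smul]
    abel

/-- hyperbolic plane -/
def hyp (F : Type*) [Field F] : QuadraticForm F (F × F) := QuadraticMap.linMulLin (LinearMap.fst F F F) (LinearMap.snd F F F)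

/-- hyperbolic plane plus a form -/
def ext (Q : QuadraticForm F V) : QuadraticForm F ((F × F) × V) := (hyp F).prod Q

theorem ext_apply (Q : QuadraticForm F V) (p : (F × F) × V) : ext Q p = p.1.1 * p.1.2 + Q p.2 := by
  simp [ext, hyp, QuadraticMap.linMulLin_apply]

theorem polar_ext (Q : QuadraticForm F V) (p r : (F × F) × V) :
    QuadraticMap.polar (ext Q) p r = p.1.1 * r.1.2 + p.1.2 * r.1.1 + QuadraticMap.polar Q p.2 r.2 := by
  simp only [QuadraticMap.polar, ext_apply, Prod.fst_add, Prod.snd_add]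
  ring

theorem nondeg_ext {Q : QuadraticForm F V} (hQ : Nondeg Q) : Nondeg (ext Q) := by
  rintro ⟨⟨a, b⟩, w⟩ hne
  by_cases ha : a = 0
  · by_cases hb : b = 0
    · subst ha hb
      obtain ⟨y, hy⟩ := hQ w (fun h => hne (by simp [h]))
      exact ⟨((0, 0), y), by rw [polar_ext]; simpa using hy⟩
    · exact ⟨((1, 0), 0), by rw [polar_ext]; simpa using hb⟩
  · exact ⟨((0, 1), 0), by rw [polar_ext]; simpa using ha⟩

variable [Fintype F] [Finite V]

theorem card_ext_value (Q : QuadraticForm F V) (c : F) :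
    Nat.card {p : (F × F) × V // ext Q p = c} =
      Fintype.card F * Nat.card {w : V // Q w = c} + (Fintype.card F - 1) * Nat.card V := by
  classical
  haveI := Fintype.ofFinite V
  let e : {p : (F × F) × V // ext Q p = c} ≃ Σ x : F, {r : F × V // x * r.1 + Q r.2 = c} :=
    { toFun := fun p => ⟨p.1.1.1, (p.1.1.2, p.1.2), by rw [← ext_apply]; exact p.2⟩
      invFun := fun s => ⟨((s.1, s.2.1.1), s.2.1.2), by rw [ext_apply]; exact s.2.2⟩
      left_inv := fun p => rfl
      right_inv := fun s => rfl }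
  rw [Nat.card_congr e, Nat.card_sigma, ← Finset.add_sum_erase _ _ (Finset.mem_univ (0 : F))]
  congr 1
  · rw [← Nat.card_eq_fintype_card (α := F), ← Nat.card_prod]
    exact Nat.card_congr
      { toFun := fun r => (r.1.1, ⟨r.1.2, by simpa using r.2⟩)
        invFun := fun r => ⟨(r.1, r.2.1), by simpa using r.2.2⟩
        left_inv := fun r => rfl
        right_inv := fun r => rfl }
  · have hs : ∀ x ∈ Finset.univ.erase (0 : F), Nat.card {r : F × V // x * r.1 + Q r.2 = c} = Nat.card V := by
      intro x hx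
      have hx0 := Finset.ne_of_mem_erase hx
      exact Nat.card_congr
        { toFun := fun r => r.1.2
          invFun := fun w => ⟨((c - Q w) / x, w), by field_simp; ring⟩
          left_inv := fun r => by
            obtain ⟨⟨y, w⟩, h⟩ := r
            refine Subtype.ext (Prod.ext ?_ rfl)
            show (c - Q w) / x = y
            rw [div_eq_iff hx0, ← h]; ring
          right_inv := fun w => rfl }
    rw [Finset.sum_congr rfl hs, Finset.sum_const, smul_eq_mul, Finset.card_erase_of_mem (Finset.mem_univ _),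
      Finset.card_univ]

/-- hyperbolic pairs -/
abbrev Pairs (Q : QuadraticForm F V) :=
  {r : V × V // Q r.1 = 0 ∧ Q r.2 = 0 ∧ QuadraticMap.polar Q r.1 r.2 = 1}

theorem card_singular_partner (Q : QuadraticForm F V) (hQ : Nondeg Q) {u : V} (hu : Q u = 0) (hu0 : u ≠ 0) :
    Nat.card {v : V // Q v = 0 ∧ QuadraticMap.polar Q u v = 1} * (Fintype.card F * Fintype.card F) = Nat.card V := by
  classical
  obtain ⟨y, hy⟩ := hQ u hu0
  let φ : V →ₗ[F] F := QuadraticMap.polarBilin Q u
  set v0 := (QuadraticMap.polar Q u y)⁻¹ • y with hv0d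
  have hv0 : φ v0 = 1 := by
    show QuadraticMap.polar Q u v0 = 1
    rw [hv0d, QuadraticMap.polar_smul_right, smul_eq_mul, inv_mul_cancel₀ hy]
  let e1 : {v : V // φ v = 1} ≃ {v : V // Q v = 0 ∧ QuadraticMap.polar Q u v = 1} × F :=
    { toFun := fun v => (⟨v.1 - Q v.1 • u, by
          rw [Qsub, Qsmul, hu, QuadraticMap.polar_smul_right, QuadraticMap.polar_comm _ v.1 u,
            show QuadraticMap.polar Q u v.1 = 1 from v.2, smul_eq_mul]; ring,
          by rw [QuadraticMap.polar_sub_right, QuadraticMap.polar_smul_right, polar_self', hu,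
            show QuadraticMap.polar Q u v.1 = 1 from v.2, add_zero, smul_zero, sub_zero]⟩, Q v.1)
      invFun := fun r => ⟨r.1.1 + r.2 • u, by
          show QuadraticMap.polar Q u _ = 1
          rw [QuadraticMap.polar_add_right, QuadraticMap.polar_smul_right, polar_self', hu, r.1.2.2, add_zero,
            smul_zero, add_zero]⟩
      left_inv := fun v => Subtype.ext (sub_add_cancel _ _)
      right_inv := fun r => by
        have h : Q (r.1.1 + r.2 • u) = r.2 := by
          rw [Qadd, Qsmul, hu, r.1.2.1, QuadraticMap.polar_smul_right, QuadraticMap.polar_comm _ r.1.1 u, r.1.2.2,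
            smul_eq_mul]; ring
        refine Prod.ext (Subtype.ext ?_) h
        show r.1.1 + r.2 • u - Q (r.1.1 + r.2 • u) • u = r.1.1
        rw [h, add_sub_cancel_right] }
  let e2 : {v : V // φ v = 1} × F ≃ V :=
    { toFun := fun r => r.1.1 + (r.2 - 1) • v0
      invFun := fun w => (⟨w + (1 - φ w) • v0, by rw [map_add, map_smul, hv0, smul_eq_mul]; ring⟩, φ w)
      left_inv := fun r => by
        have h : φ (r.1.1 + (r.2 - 1) • v0) = r.2 := by rw [map_add, map_smul, hv0, r.1.2, smul_eq_mul]; ring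
        refine Prod.ext (Subtype.ext ?_) h
        show r.1.1 + (r.2 - 1) • v0 + (1 - φ (r.1.1 + (r.2 - 1) • v0)) • v0 = r.1.1
        rw [h, add_assoc, ← add_smul, show r.2 - 1 + (1 - r.2) = (0 : F) by ring, zero_smul, add_zero]
      right_inv := fun w => by
        show w + (1 - φ w) • v0 + (φ w - 1) • v0 = w
        rw [add_assoc, ← add_smul, show 1 - φ w + (φ w - 1) = (0 : F) by ring, zero_smul, add_zero] }
  rw [← Nat.card_congr e2, Nat.card_prod, Nat.card_congr e1, Nat.card_prod, Nat.card_eq_fintype_card (α := F)]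
  ring

theorem card_pairs (Q : QuadraticForm F V) (hQ : Nondeg Q) :
    Nat.card (Pairs Q) * (Fintype.card F * Fintype.card F) =
      (Nat.card {w : V // Q w = 0} - 1) * Nat.card V := by
  classical
  haveI := Fintype.ofFinite V
  let U := {u : V // Q u = 0 ∧ u ≠ 0}
  let e : Pairs Q ≃ Σ u : U, {v : V // Q v = 0 ∧ QuadraticMap.polar Q u.1 v = 1} :=
    { toFun := fun r => ⟨⟨r.1.1, r.2.1, fun h => by
          have := r.2.2.2
          rw [h, QuadraticMap.polar_zero_left] at this
          exact zero_ne_one this⟩, r.1.2, r.2.2.1, r.2.2.2⟩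
      invFun := fun s => ⟨(s.1.1, s.2.1), s.1.2.1, s.2.2.1, s.2.2.2⟩
      left_inv := fun r => rfl
      right_inv := fun s => rfl }
  have hU : Nat.card U = Nat.card {w : V // Q w = 0} - 1 := by
    have e2 : U ≃ {w : {w : V // Q w = 0} // ¬ w = ⟨0, QuadraticMap.map_zero Q⟩} :=
      { toFun := fun u => ⟨⟨u.1, u.2.1⟩, fun h => u.2.2 (congrArg Subtype.val h)⟩
        invFun := fun w => ⟨w.1.1, w.1.2, fun h => w.2 (Subtype.ext h)⟩
        left_inv := fun u => rfl
        right_inv := fun w => rfl }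
    rw [Nat.card_congr e2, Nat.card_eq_fintype_card, Fintype.card_subtype_compl, Fintype.card_subtype_eq,
      Nat.card_eq_fintype_card]
  rw [Nat.card_congr e, Nat.card_sigma, Finset.sum_mul,
    Finset.sum_congr rfl fun u _ => card_singular_partner Q hQ u.2.1 u.2.2, Finset.sum_const, Finset.card_univ,
    smul_eq_mul, ← Nat.card_eq_fintype_card, hU]

theorem card_iso_ext (Q : QuadraticForm F V) (hQ : Nondeg Q) :
    Nat.card (Iso F ⇑(ext Q)) = (Nat.card {p : (F × F) × V // ext Q p = 0} - 1) * Nat.card V *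
      Nat.card (Iso F ⇑Q) := by
  haveI : Module.Finite F V := Module.Finite.of_finite
  have hE := nondeg_ext hQ
  set e1 : (F × F) × V := ((1, 0), 0) with he1
  set e2 : (F × F) × V := ((0, 1), 0) with he2
  have h1 : ext Q e1 = 0 := by rw [ext_apply]; simp [he1]
  have h2 : ext Q e2 = 0 := by rw [ext_apply]; simp [he2]
  have h12 : QuadraticMap.polar (ext Q) e1 e2 = 1 := by rw [polar_ext]; simp [he1, he2]
  have hex : ∀ r : Pairs (ext Q), ∃ g : Iso F ⇑(ext Q), g.1 e1 = r.1.1 ∧ g.1 e2 = r.1.2 := fun r =>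
    trans_pair (ext Q) hE h1 h2 h12 r.2.1 r.2.2.1 r.2.2.2
  choose s hs1 hs2 using hex
  let low : Iso F ⇑Q → Iso F ⇑(ext Q) := fun h =>
    ⟨(LinearEquiv.refl F (F × F)).prodCongr h.1, fun p => by simp [ext_apply, h.2]⟩
  have hlow1 : ∀ h, (low h).1 e1 = e1 := fun h => by simp [low, he1]
  have hlow2 : ∀ h, (low h).1 e2 = e2 := fun h => by simp [low, he2]
  have hbij : Function.Bijective (fun r : Pairs (ext Q) × Iso F ⇑Q => comp (s r.1) (low r.2)) := by
    refine ⟨?_, ?_⟩
    · rintro ⟨r, h⟩ ⟨r', h'⟩ he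
      obtain rfl : r = r' := by
        have a := congrArg (fun g : Iso F ⇑(ext Q) => (g.1 e1, g.1 e2)) he
        simp only [comp, LinearEquiv.trans_apply, hlow1, hlow2, hs1, hs2] at a
        exact Subtype.ext a
      refine Prod.ext rfl (Subtype.ext (LinearEquiv.ext fun w => ?_))
      have a := congrArg (fun g : Iso F ⇑(ext Q) => g.1 ((0, 0), w)) he
      simp only [comp, LinearEquiv.trans_apply] at a
      have b := congrArg Prod.snd ((s r).1.injective a)
      simpa [low] using b
    · intro g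
      let r : Pairs (ext Q) := ⟨(g.1 e1, g.1 e2), by rw [g.2, h1], by rw [g.2, h2], by rw [polar_iso, h12]⟩
      set k : Iso F ⇑(ext Q) := comp ⟨(s r).1.symm, fun v => by
        rw [← (s r).2 ((s r).1.symm v), LinearEquiv.apply_symm_apply]⟩ g with hk
      have k1 : k.1 e1 = e1 := by
        show (s r).1.symm (g.1 e1) = e1
        rw [LinearEquiv.symm_apply_eq, hs1]
      have k2 : k.1 e2 = e2 := by
        show (s r).1.symm (g.1 e2) = e2
        rw [LinearEquiv.symm_apply_eq, hs2]
      have kw : ∀ w : V, (k.1 ((0, 0), w)).1 = (0, 0) := by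
        intro w
        have a := polar_iso (ext Q) k e1 ((0, 0), w)
        have b := polar_iso (ext Q) k e2 ((0, 0), w)
        rw [k1] at a; rw [k2] at b
        simp [polar_ext, he1, he2] at a b
        exact Prod.ext b a
      let L : V →ₗ[F] V := (LinearMap.snd F (F × F) V).comp (k.1.toLinearMap.comp (LinearMap.inr F (F × F) V))
      have hL : ∀ w, Q (L w) = Q w := fun w => by
        have a := k.2 ((0, 0), w)
        rw [ext_apply, ext_apply, kw w] at a
        simpa [L, Prod.mk_zero_zero] using a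
      refine ⟨(r, mkIso Q hQ L hL), Subtype.ext (LinearEquiv.ext fun p => ?_)⟩
      show (s r).1 ((low (mkIso Q hQ L hL)).1 p) = g.1 p
      rw [← LinearEquiv.apply_symm_apply (s r).1 (g.1 p)]
      congr 1
      show (low (mkIso Q hQ L hL)).1 p = k.1 p
      obtain ⟨⟨a, b⟩, w⟩ := p
      have hp : (((a, b), w) : (F × F) × V) = a • e1 + b • e2 + ((0, 0), w) := by simp [he1, he2]
      have hz : (low (mkIso Q hQ L hL)).1 ((0, 0), w) = k.1 ((0, 0), w) := by
        refine Prod.ext ?_ ?_
        · rw [kw w]; simp [low]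
        · simp [low, mkIso_apply, L, Prod.mk_zero_zero]
      rw [hp, map_add, map_add, map_add, map_add, map_smul, map_smul, map_smul, map_smul, hlow1, hlow2, k1, k2, hz]
  rw [← Nat.card_congr (Equiv.ofBijective _ hbij), Nat.card_prod]
  congr 1
  have hq : 0 < Fintype.card F * Fintype.card F := Nat.mul_pos Fintype.card_pos Fintype.card_pos
  refine Nat.eq_of_mul_eq_mul_right hq ?_
  rw [card_pairs (ext Q) hE, Nat.card_prod, Nat.card_prod, Nat.card_eq_fintype_card (α := F)]
  ring

theorem iso_card_congr {W : Type*} [AddCommGroup W] [Module F W] (Q : V → F) (R : W → F) (e : V ≃ₗ[F] W)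
    (h : ∀ v, R (e v) = Q v) : Nat.card (Iso F Q) = Nat.card (Iso F R) :=
  Nat.card_congr
    { toFun := fun g => ⟨e.symm.trans (g.1.trans e), fun w => by
        show R (e (g.1 (e.symm w))) = R w
        rw [h, g.2, ← h, e.apply_symm_apply]⟩
      invFun := fun g => ⟨e.trans (g.1.trans e.symm), fun v => by
        show Q (e.symm (g.1 (e v))) = Q v
        rw [← h, e.apply_symm_apply, g.2, h]⟩
      left_inv := fun g => Subtype.ext (LinearEquiv.ext fun v => by simp)
      right_inv := fun g => Subtype.ext (LinearEquiv.ext fun v => by simp) }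

omit [Fintype F] [Finite V] in
theorem value_card_congr {W : Type*} [AddCommGroup W] [Module F W] (Q : V → F) (R : W → F) (e : V ≃ₗ[F] W)
    (h : ∀ v, R (e v) = Q v) (c : F) : Nat.card {v // Q v = c} = Nat.card {w // R w = c} :=
  Nat.card_congr (e.toEquiv.subtypeEquiv fun v => by show _ ↔ R (e v) = c; rw [h])

end CfsgLib.Orth.Hyperbolic
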