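import Mathlib
import Cfsg.Agent.Lib.Orth.Hyperbolic

/-! Anisotropic binary forms x^2 + a x y + b y^2 over a finite field. -/
set_option autoImplicit false

namespace CfsgLib.Orth.Binary
open CfsgLib.Orth.Hyperbolic

variable {F : Type*} [Field F]

/-- the binary form -/
def bin (a b : F) : QuadraticForm F (Fin 2 → F) :=
  QuadraticMap.linMulLin (LinearMap.proj 0) (LinearMap.proj 0) +
    (a • QuadraticMap.linMulLin (LinearMap.proj 0) (LinearMap.proj 1) +
      b • QuadraticMap.linMulLin (LinearMap.proj 1) (LinearMap.proj 1))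

theorem bin_apply (a b : F) (v : Fin 2 → F) : bin a b v = v 0 ^ 2 + a * v 0 * v 1 + b * v 1 ^ 2 := by
  simp [bin, QuadraticMap.linMulLin_apply]; ring

theorem polar_bin (a b : F) (v w : Fin 2 → F) :
    QuadraticMap.polar (bin a b) v w = 2 * v 0 * w 0 + a * (v 0 * w 1 + v 1 * w 0) + 2 * b * v 1 * w 1 := by
  simp only [QuadraticMap.polar, bin_apply, Pi.add_apply]; ring

/-- anisotropy as in the statements -/
def Aniso (a b : F) : Prop := ∀ z₁ z₂ : F, z₁ ^ 2 + a * z₁ * z₂ + b * z₂ ^ 2 = 0 → z₁ = 0 ∧ z₂ = 0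

variable {a b : F}

theorem b_ne_zero (h : Aniso a b) : b ≠ 0 := fun hb => one_ne_zero (α := F) (h 0 1 (by rw [hb]; ring)).2

theorem a_ne_zero_of_char_two [Fintype F] (h : Aniso a b) (h2 : (2 : F) = 0) : a ≠ 0 := by
  intro ha
  haveI : CharP F 2 := CharTwo.of_one_ne_zero_of_two_eq_zero one_ne_zero h2
  obtain ⟨s, hs⟩ := FiniteField.isSquare_of_char_two (ringChar.eq F 2) b
  refine one_ne_zero (α := F) (h s 1 ?_).2
  rw [ha, hs]; linear_combination (s * s) * h2

theorem disc_ne_zero (h : Aniso a b) (h2 : (2 : F) ≠ 0) : 4 * b - a ^ 2 ≠ 0 := by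
  intro hd
  refine one_ne_zero (α := F) (h (-a / 2) 1 ?_).2
  field_simp
  linear_combination hd

theorem nondeg [Fintype F] (h : Aniso a b) : Nondeg (bin a b) := by
  intro u hu
  by_contra hc
  push Not at hc
  have h0 := hc ![1, 0]
  have h1 := hc ![0, 1]
  simp [polar_bin] at h0 h1
  apply hu
  by_cases h2 : (2 : F) = 0
  · have ha := a_ne_zero_of_char_two h h2
    simp [h2] at h0 h1
    ext i; fin_cases i
    · simpa [ha] using h1
    · simpa [ha] using h0
  · have hd := disc_ne_zero h h2
    have hy : u 1 = 0 := by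
      have : (4 * b - a ^ 2) * u 1 = 0 := by linear_combination 2 * h1 - a * h0
      exact (mul_eq_zero.1 this).resolve_left hd
    ext i; fin_cases i
    · simpa [hy, h2] using h0
    · exact hy

theorem exists_value [Fintype F] (h : Aniso a b) (c : F) : ∃ v, bin a b v = c := by
  by_cases h2 : (2 : F) = 0
  · haveI : CharP F 2 := CharTwo.of_one_ne_zero_of_two_eq_zero one_ne_zero h2
    obtain ⟨s, hs⟩ := FiniteField.isSquare_of_char_two (ringChar.eq F 2) c
    exact ⟨![s, 0], by rw [bin_apply]; simp [hs, sq]⟩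
  · have hd := disc_ne_zero h h2
    set d := b - a ^ 2 / 4 with hdd
    have h4 : (4 : F) ≠ 0 := by
      rw [show (4 : F) = 2 * 2 by norm_num]; exact mul_ne_zero h2 h2
    have hd0 : d ≠ 0 := by
      intro h0; apply hd; rw [hdd] at h0; field_simp at h0; linear_combination h0
    obtain ⟨x, y, hxy⟩ := FiniteField.exists_root_sum_quadratic (R := F)
      (f := Polynomial.X ^ 2) (g := Polynomial.C d * Polynomial.X ^ 2 - Polynomial.C c)
      (by simp)
      (by rw [Polynomial.degree_sub_C] <;> simp [hd0])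
      (by
        rw [← Nat.card_eq_fintype_card]
        rcases Nat.mod_two_eq_zero_or_one (Nat.card F) with he | he
        · exfalso
          rw [Nat.card_eq_fintype_card] at he
          exact h2 (by
            have := FiniteField.even_card_iff_char_two.2 he
            haveI : CharP F 2 := ringChar.eq_iff.1 this
            exact CharTwo.two_eq_zero)
        · exact he)
    simp at hxy
    refine ⟨![x - a * y / 2, y], ?_⟩
    rw [bin_apply]
    simp only [Matrix.cons_val_zero, Matrix.cons_val_one]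
    rw [hdd] at hxy
    field_simp at hxy ⊢
    linear_combination hxy

theorem card_one [Fintype F] (h : Aniso a b) :
    Nat.card {v : Fin 2 → F // bin a b v = 1} = Fintype.card F + 1 := by
  classical
  have hzero : ∀ v : Fin 2 → F, bin a b v = 0 → v = 0 := fun v hv => by
    rw [bin_apply] at hv
    obtain ⟨e0, e1⟩ := h _ _ hv
    ext i; fin_cases i <;> assumption
  let μ : (Fin 2 → F) → (Fin 2 → F) → (Fin 2 → F) := fun x y =>
    ![x 0 * y 0 - b * x 1 * y 1, x 0 * y 1 + x 1 * y 0 + a * x 1 * y 1]
  have hμ : ∀ x y, bin a b (μ x y) = bin a b x * bin a b y := fun x y => by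
    simp only [bin_apply, μ, Matrix.cons_val_zero, Matrix.cons_val_one]; ring
  have hlin : ∀ x y z, μ x (y - z) = μ x y - μ x z := fun x y z => by
    ext i; fin_cases i <;> simp [μ] <;> ring
  have hfib : ∀ c : F, c ≠ 0 → Nat.card {v : Fin 2 → F // bin a b v = c} = Nat.card {v : Fin 2 → F // bin a b v = 1} := by
    intro c hc
    obtain ⟨x, hx⟩ := exists_value h c
    have hinj : Function.Injective (μ x) := fun y z hyz => by
      have h1 : bin a b (μ x (y - z)) = 0 := by rw [hlin, hyz, sub_self, QuadraticMap.map_zero]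
      rw [hμ, hx, mul_eq_zero] at h1
      exact sub_eq_zero.1 (hzero _ (h1.resolve_left hc))
    have hsurj := Finite.injective_iff_surjective.1 hinj
    refine (Nat.card_congr (Equiv.ofBijective (fun v : {v : Fin 2 → F // bin a b v = 1} =>
      (⟨μ x v.1, by rw [hμ, hx, v.2, mul_one]⟩ : {v : Fin 2 → F // bin a b v = c})) ⟨?_, ?_⟩)).symm
    · intro v w hvw; exact Subtype.ext (hinj (congrArg Subtype.val hvw))
    · rintro ⟨v, hv⟩
      obtain ⟨w, rfl⟩ := hsurj v
      exact ⟨⟨w, by rw [hμ, hx] at hv; exact mul_left_cancel₀ hc (hv.trans (mul_one c).symm)⟩, rfl⟩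
  have htot : Nat.card (Fin 2 → F) = 1 + (Fintype.card F - 1) * Nat.card {v : Fin 2 → F // bin a b v = 1} := by
    rw [← Nat.card_congr (Equiv.sigmaFiberEquiv (bin a b)), Nat.card_sigma,
      ← Finset.add_sum_erase _ _ (Finset.mem_univ (0 : F))]
    congr 1
    · rw [Nat.card_eq_one_iff_unique]
      exact ⟨⟨fun x y => Subtype.ext ((hzero _ x.2).trans (hzero _ y.2).symm)⟩, ⟨⟨0, QuadraticMap.map_zero _⟩⟩⟩
    · rw [Finset.sum_congr rfl fun c hc => hfib c (Finset.ne_of_mem_erase hc), Finset.sum_const, smul_eq_mul,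
        Finset.card_erase_of_mem (Finset.mem_univ _), Finset.card_univ]
  rw [Nat.card_fun, Nat.card_fin, Nat.card_eq_fintype_card (α := F)] at htot
  have hq : 2 ≤ Fintype.card F := Fintype.one_lt_card
  refine Nat.eq_of_mul_eq_mul_left (show 0 < Fintype.card F - 1 by omega) ?_
  have : Fintype.card F ^ 2 - 1 = (Fintype.card F + 1) * (Fintype.card F - 1) := by
    simpa using Nat.sq_sub_sq (Fintype.card F) 1
  rw [mul_comm (Fintype.card F - 1) (Fintype.card F + 1), ← this]
  omega

theorem card_iso [Fintype F] (h : Aniso a b) : Nat.card (Iso F ⇑(bin a b)) = 2 * (Fintype.card F + 1) := by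
  classical
  set e : Fin 2 → F := ![1, 0] with he
  set f : Fin 2 → F := ![0, 1] with hf
  have hQe : bin a b e = 1 := by rw [bin_apply]; simp [he]
  -- isometries are linear equivalences with prescribed images
  have hzero : ∀ v : Fin 2 → F, bin a b v = 0 → v = 0 := fun v hv => by
    rw [bin_apply] at hv
    obtain ⟨e0, e1⟩ := h _ _ hv
    ext i; fin_cases i <;> assumption
  have htrans : ∀ u : {v : Fin 2 → F // bin a b v = 1}, ∃ g : Iso F ⇑(bin a b), g.1 e = u.1 := by
    intro u
    by_cases heq : e = u.1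
    · exact ⟨⟨LinearEquiv.refl F _, fun _ => rfl⟩, heq⟩
    · have hw : bin a b (e - u.1) ≠ 0 := fun h0 => heq (sub_eq_zero.1 (hzero _ h0))
      obtain ⟨g, hg⟩ := reflect (bin a b) (nondeg h) (e - u.1) hw
      refine ⟨g, ?_⟩
      have hpol : QuadraticMap.polar (bin a b) e (e - u.1) = bin a b (e - u.1) := by
        rw [QuadraticMap.polar_sub_right, polar_self', Qsub, hQe, u.2]
      rw [hg, hpol, div_self hw, one_smul, sub_sub_cancel]
  choose s hs using htrans
  have hstab : Nat.card {g : Iso F ⇑(bin a b) // g.1 e = e} = 2 := by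
    have hpair : ∀ g : {g : Iso F ⇑(bin a b) // g.1 e = e}, g.1.1 f = f ∨ g.1.1 f = ![a, -1] := by
      intro g
      obtain ⟨x, y, hgf⟩ : ∃ x y, g.1.1 f = ![x, y] :=
        ⟨g.1.1 f 0, g.1.1 f 1, by ext i; fin_cases i <;> rfl⟩
      have hB := polar_iso (bin a b) g.1 e f
      rw [g.2, hgf] at hB
      have hQ := g.1.2 f
      rw [hgf] at hQ
      simp [polar_bin, bin_apply, he, hf] at hB hQ
      have key : y = 1 ∨ y = -1 := by
        by_cases h2 : (2 : F) = 0
        · have ha := a_ne_zero_of_char_two h h2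
          refine Or.inl (mul_left_cancel₀ ha ?_)
          linear_combination hB - x * h2
        · have hd := disc_ne_zero h h2
          have : (4 * b - a ^ 2) * ((y - 1) * (y + 1)) = 0 := by
            linear_combination 4 * hQ - (2 * x + a * y + a) * hB
          rcases mul_eq_zero.1 ((mul_eq_zero.1 this).resolve_left hd) with h' | h'
          · exact Or.inl (sub_eq_zero.1 h')
          · exact Or.inr (eq_neg_of_add_eq_zero_left h')
      have hres : (x = 0 ∧ y = 1) ∨ (x = a ∧ y = -1) := by
        by_cases h2 : (2 : F) = 0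
        · have hy1 : y = 1 := key.elim id fun h' => by rw [h']; linear_combination -h2
          have hfac : x * (x + a) = 0 := by rw [hy1] at hQ; linear_combination hQ
          rcases mul_eq_zero.1 hfac with hx' | hx'
          · exact Or.inl ⟨hx', hy1⟩
          · exact Or.inr ⟨by linear_combination hx' - a * h2, by rw [hy1]; linear_combination h2⟩
        · rcases key with hy1 | hy1
          · refine Or.inl ⟨mul_left_cancel₀ h2 ?_, hy1⟩
            rw [hy1] at hB; linear_combination hB
          · refine Or.inr ⟨mul_left_cancel₀ h2 ?_, hy1⟩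
            rw [hy1] at hB; linear_combination hB
      rcases hres with ⟨h1, h1'⟩ | ⟨h1, h1'⟩
      · refine Or.inl ?_; rw [hgf, h1, h1', hf]
      · refine Or.inr ?_; rw [hgf, h1, h1']
    have hτ : ∀ v : Fin 2 → F, bin a b ![v 0 + a * v 1, -v 1] = bin a b v := fun v => by
      simp only [bin_apply, Matrix.cons_val_zero, Matrix.cons_val_one]; ring
    let τ : Iso F ⇑(bin a b) := mkIso (bin a b) (nondeg h)
      { toFun := fun v => ![v 0 + a * v 1, -v 1]
        map_add' := fun u v => by ext i; fin_cases i <;> simp <;> ring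
        map_smul' := fun c v => by ext i; fin_cases i <;> simp <;> ring } hτ
    have hτe : τ.1 e = e := by ext i; fin_cases i <;> simp [τ, mkIso_apply, he]
    have hτf : τ.1 f = ![a, -1] := by ext i; fin_cases i <;> simp [τ, mkIso_apply, hf]
    have hne : (![a, -1] : Fin 2 → F) ≠ f := by
      intro h0
      have e1 := congrFun h0 1
      have e0 := congrFun h0 0
      simp [hf] at e1 e0
      exact a_ne_zero_of_char_two h (by linear_combination -e1) e0
    have hext : ∀ g g' : {g : Iso F ⇑(bin a b) // g.1 e = e}, g.1.1 f = g'.1.1 f → g = g' := by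
      intro g g' hgg
      refine Subtype.ext (Subtype.ext (LinearEquiv.ext fun v => ?_))
      have hv : v = v 0 • e + v 1 • f := by ext i; fin_cases i <;> simp [he, hf]
      rw [hv, map_add, map_add, map_smul, map_smul, map_smul, map_smul, g.2, g'.2, hgg]
    rw [Nat.card_eq_two_iff]
    refine ⟨⟨⟨LinearEquiv.refl F _, fun _ => rfl⟩, rfl⟩, ⟨τ, hτe⟩, fun h0 => hne ?_, ?_⟩
    · have h1 : f = τ.1 f := congrArg (fun g : {g : Iso F ⇑(bin a b) // g.1 e = e} => g.1.1 f) h0
      rw [← hτf, ← h1]
    · refine Set.eq_univ_of_forall fun g => ?_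
      rcases hpair g with h' | h'
      · exact Or.inl (hext _ _ h')
      · exact Or.inr (hext _ _ (h'.trans hτf.symm))
  have hbij : Function.Bijective (fun r : {v : Fin 2 → F // bin a b v = 1} × {g : Iso F ⇑(bin a b) // g.1 e = e} =>
      comp (s r.1) r.2.1) := by
    refine ⟨?_, ?_⟩
    · rintro ⟨u, g⟩ ⟨u', g'⟩ h0
      obtain rfl : u = u' := by
        have h1 := congrArg (fun k : Iso F ⇑(bin a b) => k.1 e) h0
        simp only [comp, LinearEquiv.trans_apply, g.2, g'.2, hs] at h1
        exact Subtype.ext h1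
      refine Prod.ext rfl (Subtype.ext (Subtype.ext (LinearEquiv.ext fun v => ?_)))
      exact (s u).1.injective (congrArg (fun k : Iso F ⇑(bin a b) => k.1 v) h0)
    · intro k
      let u : {v : Fin 2 → F // bin a b v = 1} := ⟨k.1 e, (k.2 e).trans hQe⟩
      refine ⟨(u, ⟨⟨k.1.trans (s u).1.symm, fun v => ?_⟩, ?_⟩), Subtype.ext (LinearEquiv.ext fun v => ?_)⟩
      · show bin a b ((s u).1.symm (k.1 v)) = bin a b v
        rw [← (s u).2 ((s u).1.symm (k.1 v)), LinearEquiv.apply_symm_apply, k.2]
      · show (s u).1.symm (k.1 e) = e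
        rw [LinearEquiv.symm_apply_eq, hs]
      · show (s u).1 ((s u).1.symm (k.1 v)) = k.1 v
        rw [LinearEquiv.apply_symm_apply]
  rw [← Nat.card_congr (Equiv.ofBijective _ hbij), Nat.card_prod, card_one h, hstab, mul_comm]

end CfsgLib.Orth.Binary
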