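import Mathlib
import Cfsg.Prelude.Def_Classical
import Cfsg.Agent.Lib.Orth.Binary

/-! The three standard orthogonal forms: zero counts and isometry group orders. -/
set_option autoImplicit false

namespace CfsgLib.Orth.Models
open CfsgLib.Orth.Hyperbolic CfsgLib.Orth.Binary

variable {F : Type*} [Field F]

/-- the plus form as a quadratic form -/
def plusQ (F : Type*) [Field F] (m : ℕ) : QuadraticForm F (Fin m ⊕ Fin m → F) :=
  ∑ i : Fin m, QuadraticMap.linMulLin (LinearMap.proj (Sum.inl i)) (LinearMap.proj (Sum.inr i))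

theorem plusQ_apply (m : ℕ) (v : Fin m ⊕ Fin m → F) : plusQ F m v = Cfsg.quadFormPlus m F v := by
  simp [plusQ, Cfsg.quadFormPlus, QuadraticMap.linMulLin_apply]

/-- the odd form as a quadratic form -/
def oddQ (F : Type*) [Field F] (m : ℕ) : QuadraticForm F (Unit ⊕ (Fin m ⊕ Fin m) → F) :=
  QuadraticMap.linMulLin (LinearMap.proj (Sum.inl ())) (LinearMap.proj (Sum.inl ())) +
    ∑ i : Fin m, QuadraticMap.linMulLin (LinearMap.proj (Sum.inr (Sum.inl i))) (LinearMap.proj (Sum.inr (Sum.inr i)))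

theorem oddQ_apply (m : ℕ) (v : Unit ⊕ (Fin m ⊕ Fin m) → F) : oddQ F m v = Cfsg.quadFormOdd m F v := by
  simp [oddQ, Cfsg.quadFormOdd, QuadraticMap.linMulLin_apply, sq]

/-- the minus form as a quadratic form -/
def minusQ (m : ℕ) (a b : F) : QuadraticForm F ((Fin m ⊕ Fin m) ⊕ Fin 2 → F) :=
  (∑ i : Fin m, QuadraticMap.linMulLin (LinearMap.proj (Sum.inl (Sum.inl i))) (LinearMap.proj (Sum.inl (Sum.inr i)))) +
    (bin a b).comp (LinearMap.funLeft F F (Sum.inr : Fin 2 → (Fin m ⊕ Fin m) ⊕ Fin 2))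

theorem minusQ_apply (m : ℕ) (a b : F) (v : (Fin m ⊕ Fin m) ⊕ Fin 2 → F) :
    minusQ m a b v = Cfsg.quadFormMinus m F a b v := by
  simp [minusQ, Cfsg.quadFormMinus, QuadraticMap.linMulLin_apply, bin_apply, LinearMap.funLeft]

/-- splitting off the first hyperbolic pair -/
def plusE (F : Type*) [Field F] (m : ℕ) : (Fin (m + 1) ⊕ Fin (m + 1) → F) ≃ₗ[F] (F × F) × (Fin m ⊕ Fin m → F) where
  toFun v := ((v (Sum.inl 0), v (Sum.inr 0)), fun k => v (k.map Fin.succ Fin.succ))
  invFun p := Sum.elim (Fin.cons p.1.1 fun i => p.2 (Sum.inl i)) (Fin.cons p.1.2 fun i => p.2 (Sum.inr i))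
  map_add' _ _ := rfl
  map_smul' _ _ := rfl
  left_inv v := by funext k; rcases k with k | k <;> induction k using Fin.cases <;> simp
  right_inv p := Prod.ext (Prod.ext (by simp) (by simp)) (funext fun k => by rcases k with k | k <;> simp)

theorem plusE_spec (m : ℕ) (v : Fin (m + 1) ⊕ Fin (m + 1) → F) : ext (plusQ F m) (plusE F m v) = plusQ F (m + 1) v := by
  rw [ext_apply, plusQ_apply, plusQ_apply, Cfsg.quadFormPlus, Cfsg.quadFormPlus, Fin.sum_univ_succ]
  rfl

/-- splitting off the first hyperbolic pair, odd dimension -/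
def oddE (F : Type*) [Field F] (m : ℕ) :
    (Unit ⊕ (Fin (m + 1) ⊕ Fin (m + 1)) → F) ≃ₗ[F] (F × F) × (Unit ⊕ (Fin m ⊕ Fin m) → F) where
  toFun v := ((v (Sum.inr (Sum.inl 0)), v (Sum.inr (Sum.inr 0))), fun k => v (k.map id (Sum.map Fin.succ Fin.succ)))
  invFun p := Sum.elim (fun u => p.2 (Sum.inl u)) (Sum.elim (Fin.cons p.1.1 fun i => p.2 (Sum.inr (Sum.inl i)))
    (Fin.cons p.1.2 fun i => p.2 (Sum.inr (Sum.inr i))))
  map_add' _ _ := rfl
  map_smul' _ _ := rfl
  left_inv v := by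
    funext k; rcases k with k | k | k
    · simp
    · induction k using Fin.cases <;> simp
    · induction k using Fin.cases <;> simp
  right_inv p := Prod.ext (Prod.ext (by simp) (by simp)) (funext fun k => by rcases k with k | k | k <;> simp)

theorem oddE_spec (m : ℕ) (v : Unit ⊕ (Fin (m + 1) ⊕ Fin (m + 1)) → F) :
    ext (oddQ F m) (oddE F m v) = oddQ F (m + 1) v := by
  rw [ext_apply, oddQ_apply, oddQ_apply, Cfsg.quadFormOdd, Cfsg.quadFormOdd, Fin.sum_univ_succ]
  show v (Sum.inr (Sum.inl 0)) * v (Sum.inr (Sum.inr 0)) + ((v (Sum.inl ())) ^ 2 +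
    ∑ i : Fin m, v (Sum.inr (Sum.inl i.succ)) * v (Sum.inr (Sum.inr i.succ))) = _
  ring

/-- splitting off the first hyperbolic pair, minus type -/
def minusE (F : Type*) [Field F] (m : ℕ) :
    ((Fin (m + 1) ⊕ Fin (m + 1)) ⊕ Fin 2 → F) ≃ₗ[F] (F × F) × ((Fin m ⊕ Fin m) ⊕ Fin 2 → F) where
  toFun v := ((v (Sum.inl (Sum.inl 0)), v (Sum.inl (Sum.inr 0))), fun k => v (k.map (Sum.map Fin.succ Fin.succ) id))
  invFun p := Sum.elim (Sum.elim (Fin.cons p.1.1 fun i => p.2 (Sum.inl (Sum.inl i)))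
    (Fin.cons p.1.2 fun i => p.2 (Sum.inl (Sum.inr i)))) (fun u => p.2 (Sum.inr u))
  map_add' _ _ := rfl
  map_smul' _ _ := rfl
  left_inv v := by
    funext k; rcases k with (k | k) | k
    · induction k using Fin.cases <;> simp
    · induction k using Fin.cases <;> simp
    · simp
  right_inv p := Prod.ext (Prod.ext (by simp) (by simp)) (funext fun k => by rcases k with (k | k) | k <;> simp)

theorem minusE_spec (m : ℕ) (a b : F) (v : (Fin (m + 1) ⊕ Fin (m + 1)) ⊕ Fin 2 → F) :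
    ext (minusQ m a b) (minusE F m v) = minusQ (m + 1) a b v := by
  rw [ext_apply, minusQ_apply, minusQ_apply, Cfsg.quadFormMinus, Cfsg.quadFormMinus, Fin.sum_univ_succ]
  show v (Sum.inl (Sum.inl 0)) * v (Sum.inl (Sum.inr 0)) +
    ((∑ i : Fin m, v (Sum.inl (Sum.inl i.succ)) * v (Sum.inl (Sum.inr i.succ))) +
      (v (Sum.inr 0) ^ 2 + a * v (Sum.inr 0) * v (Sum.inr 1) + b * v (Sum.inr 1) ^ 2)) = _
  ring

theorem nondeg_congr {V W : Type*} [AddCommGroup V] [Module F V] [AddCommGroup W] [Module F W]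
    (Q : QuadraticForm F V) (R : QuadraticForm F W) (e : V ≃ₗ[F] W) (h : ∀ v, R (e v) = Q v) (hR : Nondeg R) :
    Nondeg Q := fun u hu => by
  obtain ⟨y, hy⟩ := hR (e u) (fun h0 => hu (e.map_eq_zero_iff.1 h0))
  refine ⟨e.symm y, ?_⟩
  have : QuadraticMap.polar Q u (e.symm y) = QuadraticMap.polar R (e u) y := by
    simp only [QuadraticMap.polar, ← h, map_add, LinearEquiv.apply_symm_apply]
  rwa [this]

theorem nondeg_plus (m : ℕ) : Nondeg (plusQ F m) := by
  induction m with
  | zero => exact fun u hu => absurd (Subsingleton.elim u 0) hu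
  | succ m ih => exact nondeg_congr _ _ (plusE F m) (plusE_spec m) (nondeg_ext ih)

theorem nondeg_odd (h2 : (2 : F) ≠ 0) (m : ℕ) : Nondeg (oddQ F m) := by
  induction m with
  | zero =>
    intro u hu
    have hu0 : u (Sum.inl ()) ≠ 0 := fun h0 => hu (funext fun k => by
      rcases k with ⟨⟩ | (k | k)
      · exact h0
      · exact k.elim0
      · exact k.elim0)
    refine ⟨fun _ => 1, ?_⟩
    simp only [QuadraticMap.polar, oddQ_apply, Cfsg.quadFormOdd, Pi.add_apply, Finset.univ_eq_empty, Finset.sum_empty]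
    intro h0
    exact hu0 ((mul_eq_zero.1 (show (2 : F) * u (Sum.inl ()) = 0 by linear_combination h0)).resolve_left h2)
  | succ m ih => exact nondeg_congr _ _ (oddE F m) (oddE_spec m) (nondeg_ext ih)

/-- the minus form with no hyperbolic pairs is the binary form -/
def minusE0 (F : Type*) [Field F] : ((Fin 0 ⊕ Fin 0) ⊕ Fin 2 → F) ≃ₗ[F] (Fin 2 → F) where
  toFun v u := v (Sum.inr u)
  invFun p := Sum.elim (fun k => k.elim Fin.elim0 Fin.elim0) p
  map_add' _ _ := rfl
  map_smul' _ _ := rfl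
  left_inv v := by funext k; rcases k with (k | k) | k; exacts [k.elim0, k.elim0, rfl]
  right_inv p := rfl

theorem minusE0_spec (a b : F) (v : (Fin 0 ⊕ Fin 0) ⊕ Fin 2 → F) : bin a b (minusE0 F v) = minusQ 0 a b v := by
  rw [minusQ_apply, bin_apply, Cfsg.quadFormMinus, Finset.univ_eq_empty, Finset.sum_empty, zero_add]
  rfl

variable [Fintype F]

theorem nondeg_minus (m : ℕ) {a b : F} (h : Aniso a b) : Nondeg (minusQ m a b) := by
  induction m with
  | zero => exact nondeg_congr _ _ (minusE0 F) (minusE0_spec a b) (Binary.nondeg h)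
  | succ m ih => exact nondeg_congr _ _ (minusE F m) (minusE_spec m a b) (nondeg_ext ih)

/-- isometry group of a matrix model as linear isometries -/
theorem card_isometryGroup {ι : Type} [Fintype ι] [DecidableEq ι] (Q : (ι → F) → F) :
    Nat.card (Cfsg.isometryGroup F Q) = Nat.card (Iso F Q) :=
  Nat.card_congr
    { toFun := fun g => ⟨(LinearMap.GeneralLinearGroup.generalLinearEquiv F (ι → F))
        (Matrix.GeneralLinearGroup.toLin g.1), fun v => g.2 v 0⟩
      invFun := fun f => ⟨Matrix.GeneralLinearGroup.toLin.symm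
        ((LinearMap.GeneralLinearGroup.generalLinearEquiv F (ι → F)).symm f.1), fun v _ => by
          set g := Matrix.GeneralLinearGroup.toLin.symm
            ((LinearMap.GeneralLinearGroup.generalLinearEquiv F (ι → F)).symm f.1) with hg
          have h1 : (LinearMap.GeneralLinearGroup.generalLinearEquiv F (ι → F)) (Matrix.GeneralLinearGroup.toLin g) = f.1 := by
            rw [hg, MulEquiv.apply_symm_apply, MulEquiv.apply_symm_apply]
          show Q (g.1.mulVec v) = Q v
          rw [← f.2 v, ← h1]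
          rfl⟩
      left_inv := fun g => Subtype.ext (by simp)
      right_inv := fun f => Subtype.ext (by simp) }

theorem card_zero_plus (m : ℕ) :
    (Fintype.card F : ℤ) * Nat.card {v : Fin m ⊕ Fin m → F // plusQ F m v = 0} =
      (Fintype.card F : ℤ) ^ (2 * m) + (Fintype.card F : ℤ) ^ m * ((Fintype.card F : ℤ) - 1) := by
  induction m with
  | zero =>
    have : Nat.card {v : Fin 0 ⊕ Fin 0 → F // plusQ F 0 v = 0} = 1 := by
      rw [Nat.card_eq_one_iff_unique]
      exact ⟨⟨fun x y => Subtype.ext (Subsingleton.elim _ _)⟩, ⟨⟨0, QuadraticMap.map_zero _⟩⟩⟩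
    rw [this]; simp
  | succ m ih =>
    rw [value_card_congr (⇑(plusQ F (m + 1))) (⇑(ext (plusQ F m))) (plusE F m) (plusE_spec m), card_ext_value]
    have hV : Nat.card (Fin m ⊕ Fin m → F) = Fintype.card F ^ (2 * m) := by
      rw [Nat.card_fun, Nat.card_sum, Nat.card_fin, Nat.card_eq_fintype_card, two_mul]
    rw [hV]
    have hq : 1 ≤ Fintype.card F := Fintype.card_pos
    push_cast [hq]
    linear_combination (Fintype.card F : ℤ) * ih

theorem card_zero_odd (m : ℕ) :
    Nat.card {v : Unit ⊕ (Fin m ⊕ Fin m) → F // oddQ F m v = 0} = Fintype.card F ^ (2 * m) := by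
  induction m with
  | zero =>
    rw [mul_zero, pow_zero, Nat.card_eq_one_iff_unique]
    refine ⟨⟨fun x y => Subtype.ext (funext fun k => ?_)⟩, ⟨⟨0, QuadraticMap.map_zero _⟩⟩⟩
    rcases k with ⟨⟩ | (k | k)
    · have hx := x.2; have hy := y.2
      simp only [oddQ_apply, Cfsg.quadFormOdd, Finset.univ_eq_empty, Finset.sum_empty, add_zero, pow_eq_zero_iff two_ne_zero] at hx hy
      rw [hx, hy]
    · exact k.elim0
    · exact k.elim0
  | succ m ih =>
    rw [value_card_congr (⇑(oddQ F (m + 1))) (⇑(ext (oddQ F m))) (oddE F m) (oddE_spec m), card_ext_value, ih]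
    have hV : Nat.card (Unit ⊕ (Fin m ⊕ Fin m) → F) = Fintype.card F ^ (2 * m + 1) := by
      rw [Nat.card_fun, Nat.card_sum, Nat.card_sum, Nat.card_fin, Nat.card_eq_fintype_card, Nat.card_unique]; ring
    rw [hV]
    have hq : 1 ≤ Fintype.card F := Fintype.card_pos
    zify [hq]; ring

theorem card_zero_minus (m : ℕ) {a b : F} (h : Aniso a b) :
    (Nat.card {v : (Fin m ⊕ Fin m) ⊕ Fin 2 → F // minusQ m a b v = 0} : ℤ) =
      (Fintype.card F : ℤ) ^ (2 * m + 1) + (Fintype.card F : ℤ) ^ m - (Fintype.card F : ℤ) ^ (m + 1) := by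
  induction m with
  | zero =>
    rw [value_card_congr (⇑(minusQ 0 a b)) (⇑(bin a b)) (minusE0 F) (minusE0_spec a b)]
    have : Nat.card {v : Fin 2 → F // bin a b v = 0} = 1 := by
      rw [Nat.card_eq_one_iff_unique]
      refine ⟨⟨fun x y => Subtype.ext ?_⟩, ⟨⟨0, QuadraticMap.map_zero _⟩⟩⟩
      have hx := x.2; have hy := y.2
      rw [bin_apply] at hx hy
      obtain ⟨x0, x1⟩ := h _ _ hx
      obtain ⟨y0, y1⟩ := h _ _ hy
      ext i; fin_cases i
      · exact x0.trans y0.symm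
      · exact x1.trans y1.symm
    rw [this]; simp
  | succ m ih =>
    rw [value_card_congr (⇑(minusQ (m + 1) a b)) (⇑(ext (minusQ m a b))) (minusE F m) (minusE_spec m a b), card_ext_value]
    have hV : Nat.card ((Fin m ⊕ Fin m) ⊕ Fin 2 → F) = Fintype.card F ^ (2 * m + 2) := by
      rw [Nat.card_fun, Nat.card_sum, Nat.card_sum, Nat.card_fin, Nat.card_fin, Nat.card_eq_fintype_card]; ring
    rw [hV]
    have hq : 1 ≤ Fintype.card F := Fintype.card_pos
    push_cast [hq]
    linear_combination (Fintype.card F : ℤ) * ih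

theorem card_iso_plus (m : ℕ) : Nat.card (Iso F ⇑(plusQ F (m + 1))) =
    2 * Fintype.card F ^ ((m + 1) * m) * (Fintype.card F ^ (m + 1) - 1) *
      ∏ i ∈ Finset.range m, (Fintype.card F ^ (2 * (i + 1)) - 1) := by
  haveI : Finite F := inferInstance
  have hstep : ∀ m, Nat.card (Iso F ⇑(plusQ F (m + 1))) =
      (Fintype.card F ^ (m + 1) - 1) * (Fintype.card F ^ m + 1) * Fintype.card F ^ (2 * m) *
        Nat.card (Iso F ⇑(plusQ F m)) := by
    intro m
    rw [iso_card_congr (⇑(plusQ F (m + 1))) (⇑(ext (plusQ F m))) (plusE F m) (plusE_spec m), card_iso_ext _ (nondeg_plus m),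
      ← value_card_congr (⇑(plusQ F (m + 1))) (⇑(ext (plusQ F m))) (plusE F m) (plusE_spec m)]
    have hV : Nat.card (Fin m ⊕ Fin m → F) = Fintype.card F ^ (2 * m) := by
      rw [Nat.card_fun, Nat.card_sum, Nat.card_fin, Nat.card_eq_fintype_card, two_mul]
    rw [hV]
    congr 2
    have hz := card_zero_plus (F := F) (m + 1)
    have hq : (Fintype.card F : ℤ) ≠ 0 := by exact_mod_cast Fintype.card_ne_zero
    have h1 : 1 ≤ Fintype.card F ^ (m + 1) := Nat.one_le_pow _ _ Fintype.card_pos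
    have hz1 : 1 ≤ Nat.card {v : Fin (m + 1) ⊕ Fin (m + 1) → F // plusQ F (m + 1) v = 0} :=
      Nat.card_pos_iff.2 ⟨⟨⟨0, QuadraticMap.map_zero _⟩⟩, inferInstance⟩
    zify [h1, hz1]
    refine mul_left_cancel₀ hq ?_
    linear_combination hz
  induction m with
  | zero =>
    have h0 : Nat.card (Iso F ⇑(plusQ F 0)) = 1 := by
      rw [Nat.card_eq_one_iff_unique]
      exact ⟨⟨fun g g' => Subtype.ext (LinearEquiv.ext fun v => Subsingleton.elim _ _)⟩, ⟨⟨LinearEquiv.refl F _, fun _ => rfl⟩⟩⟩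
    rw [hstep 0, h0]; simp [mul_comm]
  | succ m ih =>
    rw [hstep (m + 1), ih, Finset.prod_range_succ]
    have h1 : 1 ≤ Fintype.card F ^ (m + 1) := Nat.one_le_pow _ _ Fintype.card_pos
    have h2 : Fintype.card F ^ (2 * (m + 1)) - 1 = (Fintype.card F ^ (m + 1) + 1) * (Fintype.card F ^ (m + 1) - 1) := by
      rw [mul_comm 2, pow_mul]; simpa using Nat.sq_sub_sq (Fintype.card F ^ (m + 1)) 1
    rw [h2]; ring

theorem card_iso_odd (h2 : (2 : F) ≠ 0) (m : ℕ) : Nat.card (Iso F ⇑(oddQ F m)) =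
    2 * Fintype.card F ^ (m ^ 2) * ∏ i ∈ Finset.range m, (Fintype.card F ^ (2 * (i + 1)) - 1) := by
  induction m with
  | zero =>
    simp only [Finset.range_zero, Finset.prod_empty, mul_one, zero_pow two_ne_zero, pow_zero]
    have hneg : ∀ v, oddQ F 0 ((LinearEquiv.neg F) v) = oddQ F 0 v := fun v => by simp
    rw [Nat.card_eq_two_iff]
    have h1 : (fun _ => (1 : F) : Unit ⊕ (Fin 0 ⊕ Fin 0) → F) ≠ -(fun _ => (1 : F)) := fun h0 => by
      have := congrFun h0 (Sum.inl ())
      exact h2 (by rw [Pi.neg_apply] at this; linear_combination this)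
    refine ⟨⟨LinearEquiv.refl F _, fun _ => rfl⟩, ⟨LinearEquiv.neg F, hneg⟩, fun h0 => h1 ?_,
      Set.eq_univ_of_forall fun g => ?_⟩
    · exact congrArg (fun g : Iso F ⇑(oddQ F 0) => g.1 fun _ => 1) h0
    · have key : ∀ u v : Unit ⊕ (Fin 0 ⊕ Fin 0) → F, u (Sum.inl ()) = v (Sum.inl ()) → u = v := fun u v h => funext fun k => by
        rcases k with ⟨⟩ | (k | k)
        · exact h
        · exact k.elim0
        · exact k.elim0
      set e : Unit ⊕ (Fin 0 ⊕ Fin 0) → F := fun _ => 1 with he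
      have hv : ∀ v : Unit ⊕ (Fin 0 ⊕ Fin 0) → F, v = v (Sum.inl ()) • e := fun v => key _ _ (by simp [he])
      have hsq := g.2 e
      simp only [oddQ_apply, Cfsg.quadFormOdd, Finset.univ_eq_empty, Finset.sum_empty, add_zero, he, one_pow] at hsq
      rcases sq_eq_one_iff.1 hsq with h | h
      · refine Or.inl (Subtype.ext (LinearEquiv.ext fun v => key _ _ ?_))
        rw [hv v, map_smul]
        show v (Sum.inl ()) * g.1 e (Sum.inl ()) = v (Sum.inl ()) * 1
        rw [h]
      · refine Or.inr (Subtype.ext (LinearEquiv.ext fun v => key _ _ ?_))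
        rw [hv v, map_smul]
        show v (Sum.inl ()) * g.1 e (Sum.inl ()) = -(v (Sum.inl ()) * 1)
        rw [h]; ring
  | succ m ih =>
    rw [iso_card_congr (⇑(oddQ F (m + 1))) (⇑(ext (oddQ F m))) (oddE F m) (oddE_spec m), card_iso_ext _ (nondeg_odd h2 m),
      ← value_card_congr (⇑(oddQ F (m + 1))) (⇑(ext (oddQ F m))) (oddE F m) (oddE_spec m), card_zero_odd, ih,
      Finset.prod_range_succ]
    have hV : Nat.card (Unit ⊕ (Fin m ⊕ Fin m) → F) = Fintype.card F ^ (2 * m + 1) := by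
      rw [Nat.card_fun, Nat.card_sum, Nat.card_sum, Nat.card_fin, Nat.card_eq_fintype_card, Nat.card_unique]; ring
    rw [hV]; ring

theorem card_iso_minus (m : ℕ) {a b : F} (h : Aniso a b) : Nat.card (Iso F ⇑(minusQ m a b)) =
    2 * Fintype.card F ^ ((m + 1) * m) * (Fintype.card F ^ (m + 1) + 1) *
      ∏ i ∈ Finset.range m, (Fintype.card F ^ (2 * (i + 1)) - 1) := by
  induction m with
  | zero =>
    rw [iso_card_congr (⇑(minusQ 0 a b)) (⇑(bin a b)) (minusE0 F) (minusE0_spec a b), Binary.card_iso h]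
    simp
  | succ m ih =>
    rw [iso_card_congr (⇑(minusQ (m + 1) a b)) (⇑(ext (minusQ m a b))) (minusE F m) (minusE_spec m a b),
      card_iso_ext _ (nondeg_minus m h),
      ← value_card_congr (⇑(minusQ (m + 1) a b)) (⇑(ext (minusQ m a b))) (minusE F m) (minusE_spec m a b), ih,
      Finset.prod_range_succ]
    have hV : Nat.card ((Fin m ⊕ Fin m) ⊕ Fin 2 → F) = Fintype.card F ^ (2 * m + 2) := by
      rw [Nat.card_fun, Nat.card_sum, Nat.card_sum, Nat.card_fin, Nat.card_fin, Nat.card_eq_fintype_card]; ring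
    rw [hV]
    have hz := card_zero_minus (m + 1) h
    have h1 : 1 ≤ Fintype.card F ^ (2 * (m + 1)) := Nat.one_le_pow _ _ Fintype.card_pos
    have h1' : 1 ≤ Fintype.card F ^ (m + 1) := Nat.one_le_pow _ _ Fintype.card_pos
    have hz1 : 1 ≤ Nat.card {v : (Fin (m + 1) ⊕ Fin (m + 1)) ⊕ Fin 2 → F // minusQ (m + 1) a b v = 0} :=
      Nat.card_pos_iff.2 ⟨⟨⟨0, QuadraticMap.map_zero _⟩⟩, inferInstance⟩
    have key : (Nat.card {v : (Fin (m + 1) ⊕ Fin (m + 1)) ⊕ Fin 2 → F // minusQ (m + 1) a b v = 0} - 1) *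
        (Fintype.card F ^ (m + 1) + 1) =
        (Fintype.card F ^ (m + 1 + 1) + 1) * (Fintype.card F ^ (2 * (m + 1)) - 1) := by
      zify [h1, hz1]
      rw [hz]; ring
    linear_combination (2 * Fintype.card F ^ (2 * m + 2) * Fintype.card F ^ ((m + 1) * m) *
      (∏ i ∈ Finset.range m, (Fintype.card F ^ (2 * (i + 1)) - 1))) * key

end CfsgLib.Orth.Models
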